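import Cfsg.Agent.H484.GenSpRow
import Cfsg.Agent.S0247

/-!
# TEAM GEN: the row `sp` of `LinRows`, `Sp_4(2)` included (helper484)
-/

set_option autoImplicit false

namespace Cfsg.Agent.H484.GenSp

open Cfsg Cfsg.Agent.H137 Subgroup Cfsg.Agent.ClassicalGeometry.SympBasic Module
  Cfsg.Agent.H440.TwoGen Cfsg.Agent.H891.Gen Cfsg.Agent.H490.Der
open scoped Matrix

universe u

section

variable {F V : Type*} [Field F] [AddCommGroup V] [Module F V] {m : ℕ}

/-- the symplectic group acting on `V` -/
noncomputable def th (e : V ≃ₗ[F] (Fin m ⊕ Fin m → F)) : Matrix.symplecticGroup (Fin m) F →* Equiv.Perm V where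
  toFun A :=
    { toFun := fun v => e.symm (A.1 *ᵥ e v)
      invFun := fun v => e.symm ((A⁻¹).1 *ᵥ e v)
      left_inv := fun v => by
        have h : (A⁻¹).1 * A.1 = 1 := congrArg Subtype.val (inv_mul_cancel A)
        show e.symm ((A⁻¹).1 *ᵥ e (e.symm (A.1 *ᵥ e v))) = v
        rw [LinearEquiv.apply_symm_apply, Matrix.mulVec_mulVec, h, Matrix.one_mulVec, LinearEquiv.symm_apply_apply]
      right_inv := fun v => by
        have h : A.1 * (A⁻¹).1 = 1 := congrArg Subtype.val (mul_inv_cancel A)
        show e.symm (A.1 *ᵥ e (e.symm ((A⁻¹).1 *ᵥ e v))) = v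
        rw [LinearEquiv.apply_symm_apply, Matrix.mulVec_mulVec, h, Matrix.one_mulVec, LinearEquiv.symm_apply_apply] }
  map_one' := by
    ext v
    show e.symm ((1 : Matrix _ _ F) *ᵥ e v) = v
    rw [Matrix.one_mulVec, LinearEquiv.symm_apply_apply]
  map_mul' A B := by
    ext v
    show e.symm ((A.1 * B.1) *ᵥ e v) = e.symm (A.1 *ᵥ e (e.symm (B.1 *ᵥ e v)))
    rw [LinearEquiv.apply_symm_apply, Matrix.mulVec_mulVec]

theorem th_apply (e : V ≃ₗ[F] (Fin m ⊕ Fin m → F)) (A : Matrix.symplecticGroup (Fin m) F) (v : V) :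
    th e A v = e.symm (A.1 *ᵥ e v) := rfl

theorem th_injective (e : V ≃ₗ[F] (Fin m ⊕ Fin m → F)) : Function.Injective (th e) := by
  intro A B h
  apply Subtype.ext
  rw [← Matrix.mulVec_injective.eq_iff]
  funext x
  have h1 : th e A (e.symm x) = th e B (e.symm x) := by rw [h]
  rw [th_apply, th_apply, LinearEquiv.apply_symm_apply] at h1
  exact e.symm.injective h1

theorem mem_range_th {f : V → V → F} {e : V ≃ₗ[F] (Fin m ⊕ Fin m → F)} (he : ∀ u v, sympForm m F (e u) (e v) = f u v)
    {g : Equiv.Perm V} : g ∈ (th e).range ↔ Semi f g 1 1 := by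
  constructor
  · rintro ⟨A, rfl⟩
    refine ⟨fun u v => ?_, fun c v => ?_, fun u v => ?_⟩
    · rw [th_apply, th_apply, th_apply, map_add, Matrix.mulVec_add, map_add]
    · rw [th_apply, th_apply, map_smul, Matrix.mulVec_smul, map_smul]
      rfl
    · rw [one_mul, th_apply, th_apply, ← he, LinearEquiv.apply_symm_apply, LinearEquiv.apply_symm_apply]
      have h := (mem_symplecticGroup_iff (A := A.1)).1 A.2 (e u) (e v)
      rw [h, he]
      rfl
  · intro h
    let g' : V →ₗ[F] V := { toFun := g, map_add' := h.add, map_smul' := h.smul }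
    let L : (Fin m ⊕ Fin m → F) →ₗ[F] (Fin m ⊕ Fin m → F) := e.toLinearMap ∘ₗ g' ∘ₗ e.symm.toLinearMap
    have hL : ∀ x, L x = e (g (e.symm x)) := fun x => rfl
    refine ⟨⟨LinearMap.toMatrix' L, ?_⟩, ?_⟩
    · rw [mem_symplecticGroup_iff]
      intro u v
      rw [LinearMap.toMatrix'_mulVec, LinearMap.toMatrix'_mulVec, hL, hL, he, h.form, one_mul]
      show f _ _ = _
      rw [← he, LinearEquiv.apply_symm_apply, LinearEquiv.apply_symm_apply]
    · ext v
      rw [th_apply, LinearMap.toMatrix'_mulVec, hL, LinearEquiv.symm_apply_apply, LinearEquiv.symm_apply_apply]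

end

/-- the symmetric group of degree six, generated by a transposition and an element -/
theorem perm_six : ∃ a b : Equiv.Perm (Fin 6), closure ({a, b} : Set (Equiv.Perm (Fin 6))) = ⊤ ∧ a ^ 2 = 1 ∧ a ≠ 1 := by
  refine ⟨Equiv.swap 0 1, finRotate 6, ?_, ?_, ?_⟩
  · have h1 : (finRotate 6).IsCycle := isCycle_finRotate
    have h2 : (finRotate 6).support = Finset.univ := support_finRotate
    have h3 := Equiv.Perm.closure_cycle_adjacent_swap h1 h2 (0 : Fin 6)
    have h4 : finRotate 6 (0 : Fin 6) = 1 := by decide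
    rw [h4] at h3
    rw [Set.pair_comm]
    exact h3
  · rw [sq, Equiv.swap_mul_self]
  · decide

/-- a group isomorphic to the symmetric group of degree six -/
theorem lgood_of_perm_six {p : ℕ} [hp : Fact p.Prime] {V : Type u} [AddCommGroup V] [Module (ZMod p) V] [Finite V]
    (hp2 : p = 2) {G : Subgroup (V ≃ₗ[ZMod p] V)} (e : ↥G ≃* Equiv.Perm (Fin 6)) : LGood G := by
  have hfin : Finite (V ≃ₗ[ZMod p] V) := Finite.of_injective (fun g => (g : V → V)) DFunLike.coe_injective
  obtain ⟨a, b, hab, ha2, ha1⟩ := perm_six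
  have hcl : closure ({e.symm a, e.symm b} : Set ↥G) = ⊤ := by
    have h := MonoidHom.map_closure (e.symm : Equiv.Perm (Fin 6) →* ↥G) {a, b}
    rw [hab, Set.image_pair, Subgroup.map_top_of_surjective _ e.symm.surjective] at h
    exact h.symm
  refine ⟨⟨_, _, hcl⟩, ?_⟩
  have h2 : ∀ v : V, 2 • v = 0 := by
    intro v
    have := nsmul_p p v
    rwa [hp2] at this
  obtain ⟨v, hv⟩ : ∃ v : V, e.symm a • v ≠ v := by
    by_contra hcon
    push Not at hcon
    apply ha1
    have h3 : e.symm a = 1 := by
      apply Subtype.ext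
      ext v
      exact hcon v
    rw [← e.apply_symm_apply a, h3, map_one]
  refine small_of_involution h2 hcl ?_ hv
  rw [← map_pow, ha2, map_one]

/-- **The row `sp` of `LinRows`.** -/
theorem sp_row_full : ∀ (p : ℕ) [Fact p.Prime] (V : Type u) [AddCommGroup V] [Module (ZMod p) V] [Finite V]
    (G : Subgroup (V ≃ₗ[ZMod p] V)) (F : Type) [Field F] [Fintype F] [Module F V] (f : LinearMap.BilinForm F V),
    2 < finrank F V → f.IsAlt → f.Nondegenerate →
    (∀ g ∈ G, ∃ (σ : F ≃+* F) (μ : F), (∀ (c : F) (v : V), g (c • v) = σ c • g v) ∧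
      ∀ u v, f (g u) (g v) = μ * σ (f u v)) →
    (∀ g : V ≃ₗ[F] V, (∀ u v, f (g u) (g v) = f u v) → ∃ h ∈ G, ∀ v, h v = g v) → LGood G := by
  intro p hp V _ _ _ G F _ _ _ f h2 hf hn hG hSp
  have hfd : FiniteDimensional F V := Module.Finite.of_finite
  obtain ⟨m, hm, e, he⟩ := exists_coord f hf hn
  by_cases h3 : finrank F V = 4 → 3 ≤ Fintype.card F
  · exact sp_row p V G F f (by omega) h3 hf hn hG hSp
  push Not at h3
  obtain ⟨h4, h5⟩ := h3
  have hq2 : 2 ≤ Fintype.card F := Fintype.one_lt_card
  have hq : Fintype.card F = 2 := by omega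
  have hm2 : m = 2 := by omega
  subst hm2
  have hF : ∀ x : F, x = 0 ∨ x = 1 := by
    intro x
    have h6 := FiniteField.pow_card x
    rw [hq] at h6
    have h7 : x * (x - 1) = 0 := by linear_combination h6
    rcases mul_eq_zero.1 h7 with h8 | h8
    · exact Or.inl h8
    · exact Or.inr (by linear_combination h8)
  have hnt : Nontrivial V := Module.nontrivial_of_finrank_pos (R := F) (by omega)
  have hp2 : p = 2 := by
    obtain ⟨v, hv⟩ := exists_ne (0 : V)
    have h6 := nsmul_p p v
    rw [← Nat.cast_smul_eq_nsmul F] at h6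
    have h7 : (p : F) = 0 := (smul_eq_zero.1 h6).resolve_right hv
    have h8 : (2 : F) = 0 := by
      have h9 := FiniteField.cast_card_eq_zero F
      rw [hq] at h9
      exact_mod_cast h9
    have hc : CharP F 2 := CharTwo.of_one_ne_zero_of_two_eq_zero one_ne_zero h8
    have h9 : 2 ∣ p := (CharP.cast_eq_zero_iff F 2 p).1 h7
    exact ((Nat.prime_dvd_prime_iff_eq Nat.prime_two hp.out).1 h9).symm
  have hmap : G.map toPm = (th e).range := by
    ext g
    rw [mem_range_th (f := fn f) he]
    constructor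
    · rintro ⟨g, hg, rfl⟩
      obtain ⟨σ, μ, h6, h7⟩ := hG g hg
      have hμ : μ = 1 := by
        rcases hF μ with h | h
        · exfalso
          obtain ⟨v, hv⟩ := exists_ne (0 : V)
          refine hv (hn.1 v fun w => ?_)
          have h8 := h7 (g.symm v) (g.symm w)
          rwa [LinearEquiv.apply_symm_apply, LinearEquiv.apply_symm_apply, h, zero_mul] at h8
        · exact h
      have hσ : σ = 1 := by
        ext x
        rcases hF x with h | h
        · rw [h, map_zero, map_zero]
        · rw [h, map_one, map_one]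
      rw [hσ, hμ] at h7
      rw [hσ] at h6
      exact ⟨fun u v => map_add g u v, h6, h7⟩
    · intro hg
      let g' : V ≃ₗ[F] V :=
        { toFun := g
          invFun := g.symm
          map_add' := hg.add
          map_smul' := hg.smul
          left_inv := g.left_inv
          right_inv := g.right_inv }
      obtain ⟨h, hh, h1⟩ := hSp g' (fun u v => by
        have := hg.form u v
        rw [one_mul] at this
        exact this)
      exact ⟨h, hh, Equiv.ext h1⟩
  obtain ⟨E6⟩ := Cfsg.Agent.S0247.result hq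
  exact lgood_of_perm_six hp2 ((G.equivMapOfInjective toPm toPm_injective).trans
    ((MulEquiv.subgroupCongr hmap).trans ((MonoidHom.ofInjective (th_injective e)).symm.trans E6)))

end Cfsg.Agent.H484.GenSp
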