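import Mathlib
import Cfsg.Agent.Lib.NilpotentCoprime

/-!
# Groups with a non-nilpotent subgroup of order prime to `p` (helper484)

* `HasNN p G` : some subgroup of `G` of order prime to `p` is not nilpotent;
* `of_injective`, `of_quotient` (lifting over normal `r`-subgroups);
* `of_pair` : two non-commuting elements of coprime orders in a subgroup of order prime to `p`;
* `of_s3`, `of_a4` : presentations of `S₃` and `A₄`.
-/

set_option autoImplicit false

namespace Cfsg.Agent.H484.NonNil

universe u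

/-- some subgroup of order prime to `p` is not nilpotent -/
def HasNN (p : ℕ) (G : Type*) [Group G] : Prop :=
  ∃ H : Subgroup G, (Nat.card H).Coprime p ∧ ¬ Group.IsNilpotent H

theorem HasNN.of_injective {p : ℕ} {G K : Type*} [Group G] [Group K] (f : G →* K)
    (hf : Function.Injective f) (h : HasNN p G) : HasNN p K := by
  obtain ⟨H, hc, hn⟩ := h
  have e := H.equivMapOfInjective f hf
  refine ⟨H.map f, ?_, ?_⟩
  · rwa [← Nat.card_congr e.toEquiv]
  · intro h
    exact hn (Group.nilpotent_of_mulEquiv e.symm)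

theorem HasNN.of_mulEquiv {p : ℕ} {G K : Type*} [Group G] [Group K] (f : G ≃* K)
    (h : HasNN p G) : HasNN p K :=
  h.of_injective f.toMonoidHom f.injective

/-- two elements of coprime orders which do not commute -/
theorem of_pair {p : ℕ} {G : Type*} [Group G] (H : Subgroup G) (hc : (Nat.card H).Coprime p)
    {a b : G} (ha : a ∈ H) (hb : b ∈ H) (hab : (orderOf a).Coprime (orderOf b))
    (hne : a * b ≠ b * a) : HasNN p G := by
  refine ⟨H, hc, fun h => hne ?_⟩
  have h1 := Cfsg.Agent.Lib.NilpotentCoprime.commute_of_coprime_orderOf (N := H) (a := ⟨a, ha⟩) (b := ⟨b, hb⟩)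
    (by rwa [Subgroup.orderOf_mk, Subgroup.orderOf_mk])
  exact congrArg Subtype.val h1.eq

/-- The order of a product of two subgroups, one normalising the other. -/
theorem card_sup_dvd {G : Type*} [Group G] (A B : Subgroup G)
    (h : A ≤ Subgroup.normalizer (B : Set G)) : Nat.card ↥(A ⊔ B) ∣ Nat.card A * Nat.card B := by
  have h1 : B.relIndex (A ⊔ B) ∣ Nat.card A := by
    have hB : B ≤ Subgroup.normalizer (B : Set G) := Subgroup.le_normalizer
    have h2 : A ⊔ B ≤ Subgroup.normalizer (B : Set G) := sup_le h hB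
    have h3 : (B.subgroupOf (A ⊔ B)).Normal := Subgroup.normal_subgroupOf_of_le_normalizer h2
    have h4 : (B.subgroupOf (Subgroup.normalizer (B : Set G))).Normal := inferInstance
    have h5 : B.relIndex (A ⊔ B) = B.relIndex A := by
      have e1 : A.subgroupOf (A ⊔ B) ⊔ B.subgroupOf (A ⊔ B) = ⊤ := by
        rw [← Subgroup.subgroupOf_sup (le_sup_left) (le_sup_right)]
        simp
      have e2 := Subgroup.relIndex_sup_right (H := A.subgroupOf (A ⊔ B)) (K := B.subgroupOf (A ⊔ B))
      rw [e1, Subgroup.relIndex_top_right] at e2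
      have e3 : (B.subgroupOf (A ⊔ B)).relIndex (A.subgroupOf (A ⊔ B)) = B.relIndex A :=
        Subgroup.relIndex_subgroupOf le_sup_left
      rw [e3] at e2
      exact e2
    rw [h5]
    exact Subgroup.relIndex_dvd_card B A
  have h2 : Nat.card ↥(A ⊔ B) = Nat.card B * B.relIndex (A ⊔ B) := by
    rw [Subgroup.relIndex, ← Subgroup.card_mul_index (B.subgroupOf (A ⊔ B))]
    congr 1
    exact Nat.card_congr (Subgroup.subgroupOfEquivOfLe le_sup_right).toEquiv
  rw [h2, mul_comm]
  exact Nat.mul_dvd_mul_right h1 _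

theorem coprime_of_dvd {p a b : ℕ} (h : a ∣ b) (hb : b.Coprime p) : a.Coprime p :=
  Nat.Coprime.coprime_dvd_left h hb

theorem mem_normalizer_of_finite {G : Type*} [Group G] {V : Subgroup G} [Finite V] {w : G}
    (h : ∀ v ∈ V, w * v * w⁻¹ ∈ V) : w ∈ Subgroup.normalizer (V : Set G) := by
  have h1 : V.map (MulAut.conj w).toMonoidHom ≤ V := by
    rintro _ ⟨v, hv, rfl⟩
    exact h v hv
  have h2 : V.map (MulAut.conj w).toMonoidHom = V := by
    exact Subgroup.eq_of_le_of_card_ge h1
      (le_of_eq (Nat.card_congr (V.equivMapOfInjective (MulAut.conj w).toMonoidHom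
        (MulAut.conj w).injective).toEquiv))
  rw [Subgroup.mem_normalizer_iff]
  intro x
  refine ⟨fun hx => h x hx, fun hx => ?_⟩
  have hx' : w * x * w⁻¹ ∈ V := hx
  rw [← h2] at hx'
  obtain ⟨y, hy, hyx⟩ := hx'
  have : y = x := (MulAut.conj w).injective hyx
  rwa [← this]

/-- The presentation of `S₃`. -/
theorem of_s3 {p : ℕ} (hp : p.Prime) (hp3 : 3 < p) {G : Type*} [Group G] {a b : G}
    (ha : a ^ 2 = 1) (hb : b ^ 3 = 1) (h : a * b * a⁻¹ = b⁻¹) (hne : b ≠ 1) (ha1 : a ≠ 1) :
    HasNN p G := by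
  have hoa : orderOf a = 2 := orderOf_eq_prime ha ha1
  have : Fact (Nat.Prime 3) := ⟨Nat.prime_three⟩
  have hob : orderOf b = 3 := orderOf_eq_prime hb hne
  have hfin : Finite (Subgroup.zpowers b) := by
    rw [← Nat.card_zpowers] at hob
    exact Nat.finite_of_card_ne_zero (by rw [hob]; norm_num)
  have hn : Subgroup.zpowers a ≤ Subgroup.normalizer (Subgroup.zpowers b : Set G) := by
    rw [Subgroup.zpowers_le]
    refine mem_normalizer_of_finite ?_
    intro v hv
    obtain ⟨k, rfl⟩ := Subgroup.mem_zpowers_iff.mp hv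
    have : a * b ^ k * a⁻¹ = (a * b * a⁻¹) ^ k := (conj_zpow).symm
    rw [this, h]
    exact Subgroup.zpow_mem _ (Subgroup.inv_mem _ (Subgroup.mem_zpowers b)) k
  have hcard := card_sup_dvd _ _ hn
  rw [Nat.card_zpowers, Nat.card_zpowers, hoa, hob] at hcard
  refine of_pair (Subgroup.zpowers a ⊔ Subgroup.zpowers b) (coprime_of_dvd hcard ?_)
    (Subgroup.mem_sup_left (Subgroup.mem_zpowers a)) (Subgroup.mem_sup_right (Subgroup.mem_zpowers b))
    (by rw [hoa, hob]; norm_num) ?_
  · rw [Nat.coprime_comm, Nat.Prime.coprime_iff_not_dvd hp]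
    intro hd
    rcases (Nat.Prime.dvd_mul hp).mp hd with h | h
    · have := Nat.le_of_dvd (by norm_num) h
      omega
    · have := Nat.le_of_dvd (by norm_num) h
      omega
  · intro hab
    have h1 : a * b * a⁻¹ = b := by rw [hab]; group
    rw [h1] at h
    have h2 : b ^ 2 = 1 := by
      rw [pow_two]
      nth_rewrite 1 [h]
      group
    have h3 : orderOf b ∣ 2 := orderOf_dvd_of_pow_eq_one h2
    rw [hob] at h3
    omega

/-- The presentation of `A₄`. -/
theorem of_a4 {p : ℕ} (hp : p.Prime) (hp3 : 3 < p) {G : Type*} [Group G] {a b w : G}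
    (ha : a ^ 2 = 1) (hb : b ^ 2 = 1) (hab : a * b = b * a) (hw : w ^ 3 = 1)
    (h1 : w * a * w⁻¹ = a * b) (h2 : w * b * w⁻¹ = a) (hb1 : b ≠ 1) : HasNN p G := by
  have hwa : w * a ≠ a * w := by
    intro h
    have h3 : w * a * w⁻¹ = a := by rw [h]; group
    rw [h3] at h1
    exact hb1 (by simpa using h1.symm)
  have ha1 : a ≠ 1 := by
    rintro rfl
    exact hwa (by simp)
  have hw1 : w ≠ 1 := by
    rintro rfl
    exact hwa (by simp)
  have hoa : orderOf a = 2 := orderOf_eq_prime ha ha1
  have hob : orderOf b = 2 := orderOf_eq_prime hb hb1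
  have : Fact (Nat.Prime 3) := ⟨Nat.prime_three⟩
  have how : orderOf w = 3 := orderOf_eq_prime hw hw1
  set V := Subgroup.zpowers a ⊔ Subgroup.zpowers b with hV
  have haV : a ∈ V := Subgroup.mem_sup_left (Subgroup.mem_zpowers a)
  have hbV : b ∈ V := Subgroup.mem_sup_right (Subgroup.mem_zpowers b)
  have hcV : Nat.card V ∣ 4 := by
    have hfin : Finite (Subgroup.zpowers b) := by
      rw [← Nat.card_zpowers] at hob
      exact Nat.finite_of_card_ne_zero (by rw [hob]; norm_num)
    have hn : Subgroup.zpowers a ≤ Subgroup.normalizer (Subgroup.zpowers b : Set G) := by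
      rw [Subgroup.zpowers_le]
      refine mem_normalizer_of_finite ?_
      intro v hv
      obtain ⟨k, rfl⟩ := Subgroup.mem_zpowers_iff.mp hv
      have h3 : a * b ^ k * a⁻¹ = (a * b * a⁻¹) ^ k := (conj_zpow).symm
      have h4 : a * b * a⁻¹ = b := by rw [hab]; group
      rw [h3, h4]
      exact Subgroup.zpow_mem _ (Subgroup.mem_zpowers b) k
    have := card_sup_dvd _ _ hn
    rwa [Nat.card_zpowers, Nat.card_zpowers, hoa, hob] at this
  have hfV : Finite V := Nat.finite_of_card_ne_zero (by
    intro h0; rw [h0] at hcV; simp at hcV)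
  have hwn : w ∈ Subgroup.normalizer (V : Set G) := by
    refine mem_normalizer_of_finite ?_
    have h3 : V ≤ V.comap (MulAut.conj w).toMonoidHom := by
      rw [hV, sup_le_iff, Subgroup.zpowers_le, Subgroup.zpowers_le, ← hV]
      refine ⟨?_, ?_⟩
      · show w * a * w⁻¹ ∈ V
        rw [h1]; exact mul_mem haV hbV
      · show w * b * w⁻¹ ∈ V
        rw [h2]; exact haV
    exact fun v hv => h3 hv
  have hcard := card_sup_dvd (Subgroup.zpowers w) V (by rwa [Subgroup.zpowers_le])
  rw [Nat.card_zpowers, how] at hcard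
  refine of_pair (Subgroup.zpowers w ⊔ V) (coprime_of_dvd (hcard.trans (Nat.mul_dvd_mul_left 3 hcV)) ?_)
    (Subgroup.mem_sup_left (Subgroup.mem_zpowers w)) (Subgroup.mem_sup_right haV)
    (by rw [hoa, how]; norm_num) hwa
  rw [Nat.coprime_comm, Nat.Prime.coprime_iff_not_dvd hp]
  intro hd
  have h12 : p ∣ 2 ^ 2 * 3 := by simpa using hd
  rcases (Nat.Prime.dvd_mul hp).mp h12 with h | h
  · have := Nat.le_of_dvd (by norm_num) (hp.dvd_of_dvd_pow h)
    omega
  · have := Nat.le_of_dvd (by norm_num) h
    omega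

/-- Lifting over a normal `r`-subgroup. -/
theorem HasNN.of_quotient {p r : ℕ} (hp : p.Prime) (hr : r.Prime) {G : Type*} [Group G] [Finite G]
    (N : Subgroup G) [N.Normal] (hN : IsPGroup r N) (h : HasNN p (G ⧸ N)) : HasNN p G := by
  have : Fact r.Prime := ⟨hr⟩
  have : Fact p.Prime := ⟨hp⟩
  obtain ⟨H, hc, hn⟩ := h
  set K := H.comap (QuotientGroup.mk' N) with hK
  have hNK : N ≤ K := by
    intro x hx
    rw [hK, Subgroup.mem_comap, QuotientGroup.mk'_apply, (QuotientGroup.eq_one_iff x).mpr hx]
    exact one_mem _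
  -- the surjection `K → H`
  let f : K →* H := ((QuotientGroup.mk' N).subgroupComap H)
  have hf : Function.Surjective f :=
    MonoidHom.subgroupComap_surjective_of_surjective _ _ (QuotientGroup.mk'_surjective N)
  have hker : f.ker = N.subgroupOf K := by
    ext x
    rw [MonoidHom.mem_ker, Subgroup.mem_subgroupOf, ← QuotientGroup.eq_one_iff]
    constructor
    · intro h
      exact congrArg Subtype.val h
    · intro h
      exact Subtype.ext h
  have hidx : f.ker.index = Nat.card H := by
    rw [Subgroup.index_ker, MonoidHom.range_eq_top.mpr hf]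
    exact Nat.card_congr Subgroup.topEquiv.toEquiv
  obtain ⟨n, hn1⟩ := (IsPGroup.iff_card).mp hN
  have hcN : Nat.card f.ker = r ^ n := by
    rw [hker, ← hn1]
    exact Nat.card_congr (Subgroup.subgroupOfEquivOfLe hNK).toEquiv
  by_cases hrp : r = p
  · subst hrp
    have hco : Nat.Coprime (Nat.card f.ker) f.ker.index := by
      rw [hcN, hidx]
      exact Nat.Coprime.pow_left n hc.symm
    obtain ⟨C, hC⟩ := Subgroup.exists_right_complement'_of_coprime hco
    -- `C ≃ H`
    have hinj : Function.Injective (f.comp C.subtype) := by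
      rw [← MonoidHom.ker_eq_bot_iff, eq_bot_iff]
      intro x hx
      have h1 : (x : K) ∈ f.ker := hx
      have h2 := hC.disjoint.le_bot (x := (x : K)) ⟨h1, x.2⟩
      exact Subtype.ext h2
    have hcC : Nat.card C = Nat.card H := by
      rw [← hidx]
      exact hC.symm.index_eq_card.symm
    have hbij : Function.Bijective (f.comp C.subtype) :=
      (Nat.bijective_iff_injective_and_card _).mpr ⟨hinj, hcC⟩
    let e : C ≃* H := MulEquiv.ofBijective _ hbij
    refine HasNN.of_injective K.subtype K.subtype_injective ⟨C, by rwa [hcC], fun hC1 => hn ?_⟩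
    exact Group.nilpotent_of_mulEquiv e
  · refine ⟨K, ?_, fun h => hn (Group.nilpotent_of_surjective f hf)⟩
    rw [← Subgroup.card_mul_index f.ker, hcN, hidx]
    refine Nat.Coprime.mul_left (Nat.Coprime.pow_left n ?_) hc
    exact (Nat.coprime_primes hr hp).mpr hrp

end Cfsg.Agent.H484.NonNil
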