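import Mathlib
import Cfsg.Agent.H484.NonNil

/-!
# Non-nilpotent `{2,3}`-subgroups of `PSL₂(q)`, `PSL₃(q)` (helper484)

`S₃ ≤ PSL₂(q)` for `q` even, `A₄ ≤ PSL₂(q)` for `q` odd, `A₄ ≤ PSL₃(q)` for `q` odd.
-/

set_option autoImplicit false

namespace Cfsg.Agent.H484.NonNilPSL

open Matrix Cfsg.Agent.H484.NonNil

variable {F : Type*} [Field F]

theorem scalar_of_center {n : ℕ} {A : SpecialLinearGroup (Fin n) F}
    (hA : A ∈ Subgroup.center (SpecialLinearGroup (Fin n) F)) :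
    ∃ r : F, A.1 = scalar (Fin n) r := by
  rw [Matrix.SpecialLinearGroup.mem_center_iff] at hA
  obtain ⟨r, _, h⟩ := hA
  exact ⟨r, h.symm⟩

theorem mk_ne_one_of_offdiag {n : ℕ} {A : SpecialLinearGroup (Fin n) F} {i j : Fin n} (hij : i ≠ j)
    (h : A.1 i j ≠ 0) :
    (QuotientGroup.mk A : Matrix.ProjectiveSpecialLinearGroup (Fin n) F) ≠ 1 := by
  intro h1
  rw [QuotientGroup.eq_one_iff] at h1
  obtain ⟨r, hr⟩ := scalar_of_center h1
  apply h
  rw [hr, scalar_apply, diagonal_apply_ne _ hij]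

theorem mk_ne_one_of_diag {n : ℕ} {A : SpecialLinearGroup (Fin n) F} {i j : Fin n}
    (h : A.1 i i ≠ A.1 j j) :
    (QuotientGroup.mk A : Matrix.ProjectiveSpecialLinearGroup (Fin n) F) ≠ 1 := by
  intro h1
  rw [QuotientGroup.eq_one_iff] at h1
  obtain ⟨r, hr⟩ := scalar_of_center h1
  apply h
  rw [hr, scalar_apply, diagonal_apply_eq, diagonal_apply_eq]

/-! ### even characteristic -/

section Even

variable (F)

def sA : SpecialLinearGroup (Fin 2) F :=
  ⟨!![0, 1; -1, 0], by rw [Matrix.det_fin_two_of]; ring⟩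

def sB : SpecialLinearGroup (Fin 2) F :=
  ⟨!![0, 1; -1, -1], by rw [Matrix.det_fin_two_of]; ring⟩

def sBi : SpecialLinearGroup (Fin 2) F :=
  ⟨!![-1, -1; 1, 0], by rw [Matrix.det_fin_two_of]; ring⟩

def sZ : SpecialLinearGroup (Fin 2) F :=
  ⟨!![-1, 0; 0, -1], by rw [Matrix.det_fin_two_of]; ring⟩

theorem sZ_mem : sZ F ∈ Subgroup.center (SpecialLinearGroup (Fin 2) F) := by
  rw [Matrix.SpecialLinearGroup.mem_center_iff]
  refine ⟨-1, by simp, ?_⟩
  ext i j
  fin_cases i <;> fin_cases j <;> simp [sZ, Matrix.scalar_apply]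

theorem sA_sq : sA F * sA F = sZ F := by
  refine Subtype.ext ?_
  change (sA F).1 * (sA F).1 = (sZ F).1
  ext i j
  fin_cases i <;> fin_cases j <;> simp [sA, sZ, Matrix.mul_apply, Fin.sum_univ_two]

theorem sB_mul : sB F * sB F = sBi F := by
  refine Subtype.ext ?_
  change (sB F).1 * (sB F).1 = (sBi F).1
  ext i j
  fin_cases i <;> fin_cases j <;> simp [sB, sBi, Matrix.mul_apply, Fin.sum_univ_two]

theorem sBi_mul : sBi F * sB F = 1 := by
  refine Subtype.ext ?_
  change (sBi F).1 * (sB F).1 = 1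
  ext i j
  fin_cases i <;> fin_cases j <;> simp [sB, sBi, Matrix.mul_apply, Fin.sum_univ_two]

theorem sAB (h2 : (2 : F) = 0) : sA F * sB F = sBi F * sA F := by
  refine Subtype.ext ?_
  change (sA F).1 * (sB F).1 = (sBi F).1 * (sA F).1
  ext i j
  fin_cases i <;> fin_cases j <;>
    simp [sA, sB, sBi, Matrix.mul_apply, Fin.sum_univ_two] <;> linear_combination (-1 : F) * h2

end Even

theorem psl_two_even (h2 : (2 : F) = 0) {p : ℕ} (hp : p.Prime) (hp3 : 3 < p) :
    HasNN p (Matrix.ProjectiveSpecialLinearGroup (Fin 2) F) := by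
  let π := QuotientGroup.mk' (Subgroup.center (SpecialLinearGroup (Fin 2) F))
  have hz : π (sZ F) = 1 := (QuotientGroup.eq_one_iff _).mpr (sZ_mem F)
  have hb1 : π (sB F) ≠ 1 := mk_ne_one_of_offdiag (i := 0) (j := 1) (by decide) (by simp [sB])
  have ha1 : π (sA F) ≠ 1 := mk_ne_one_of_offdiag (i := 0) (j := 1) (by decide) (by simp [sA])
  have hbi : π (sBi F) = (π (sB F))⁻¹ := by
    rw [eq_inv_iff_mul_eq_one, ← map_mul, sBi_mul, map_one]
  refine of_s3 hp hp3 (a := π (sA F)) (b := π (sB F)) ?_ ?_ ?_ hb1 ha1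
  · rw [pow_two, ← map_mul, sA_sq, hz]
  · rw [pow_succ, pow_two, ← map_mul, sB_mul, ← map_mul, sBi_mul, map_one]
  · rw [← map_mul, sAB F h2, map_mul, hbi]; group

/-! ### odd characteristic -/

section Odd

variable {x y : F}

def qI (h : x ^ 2 + y ^ 2 = -1) : SpecialLinearGroup (Fin 2) F :=
  ⟨!![x, y; y, -x], by rw [Matrix.det_fin_two_of]; linear_combination (-1 : F) * h⟩

def qW (h2 : (2 : F) ≠ 0) (h : x ^ 2 + y ^ 2 = -1) : SpecialLinearGroup (Fin 2) F :=
  ⟨!![(-1 + x - y) / 2, (y + 1 + x) / 2; (y - 1 + x) / 2, (-1 - x + y) / 2], by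
    rw [Matrix.det_fin_two_of]
    field_simp
    linear_combination (-2 : F) * h⟩

theorem qI_sq (h : x ^ 2 + y ^ 2 = -1) : qI h * qI h = sZ F := by
  refine Subtype.ext ?_
  change (qI h).1 * (qI h).1 = (sZ F).1
  ext i j
  fin_cases i <;> fin_cases j <;> simp [qI, sZ, Matrix.mul_apply, Fin.sum_univ_two]
  · linear_combination h
  · ring
  · ring
  · linear_combination h

theorem qIJ (h : x ^ 2 + y ^ 2 = -1) : qI h * sA F = sZ F * (sA F * qI h) := by
  refine Subtype.ext ?_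
  change (qI h).1 * (sA F).1 = (sZ F).1 * ((sA F).1 * (qI h).1)
  ext i j
  fin_cases i <;> fin_cases j <;> simp [qI, sA, sZ, Matrix.mul_apply, Fin.sum_univ_two]

theorem qWI (h2 : (2 : F) ≠ 0) (h : x ^ 2 + y ^ 2 = -1) :
    qW h2 h * qI h = qI h * sA F * qW h2 h := by
  refine Subtype.ext ?_
  change (qW h2 h).1 * (qI h).1 = (qI h).1 * (sA F).1 * (qW h2 h).1
  ext i j
  fin_cases i <;> fin_cases j <;> simp [qI, sA, qW, Matrix.mul_apply, Fin.sum_univ_two] <;>
    field_simp <;> ring_nf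

theorem qWJ (h2 : (2 : F) ≠ 0) (h : x ^ 2 + y ^ 2 = -1) :
    qW h2 h * sA F = qI h * qW h2 h := by
  refine Subtype.ext ?_
  change (qW h2 h).1 * (sA F).1 = (qI h).1 * (qW h2 h).1
  ext i j
  fin_cases i <;> fin_cases j <;> simp [qI, sA, qW, Matrix.mul_apply, Fin.sum_univ_two] <;>
    field_simp <;> ring_nf
  · linear_combination (-1 : F) * h
  · linear_combination (-1 : F) * h
  · linear_combination h
  · linear_combination (-1 : F) * h

theorem qW_cube (h2 : (2 : F) ≠ 0) (h : x ^ 2 + y ^ 2 = -1) :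
    qW h2 h * qW h2 h * qW h2 h = 1 := by
  refine Subtype.ext ?_
  change (qW h2 h).1 * (qW h2 h).1 * (qW h2 h).1 = 1
  ext i j
  fin_cases i <;> fin_cases j <;> simp [qW, Matrix.mul_apply, Fin.sum_univ_two] <;>
    field_simp <;> ring_nf
  · linear_combination (2 * x - 2 * y - 6) * h
  · linear_combination (2 + 2 * y + 2 * x) * h
  · linear_combination (-2 + 2 * y + 2 * x) * h
  · linear_combination (-6 + 2 * y - 2 * x) * h

end Odd

theorem psl_two_odd [Finite F] (h2 : (2 : F) ≠ 0) {p : ℕ} (hp : p.Prime) (hp3 : 3 < p) :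
    HasNN p (Matrix.ProjectiveSpecialLinearGroup (Fin 2) F) := by
  obtain ⟨x, y, h⟩ : ∃ x y : F, x ^ 2 + y ^ 2 = -1 := by
    obtain ⟨q, hq⟩ := CharP.exists F
    have hq0 : NeZero q := ⟨CharP.char_ne_zero_of_finite F q⟩
    obtain ⟨a, b, hab⟩ := CharP.sq_add_sq F q (-1)
    exact ⟨a, b, by rw [hab]; simp⟩
  let π := QuotientGroup.mk' (Subgroup.center (SpecialLinearGroup (Fin 2) F))
  have hz : π (sZ F) = 1 := (QuotientGroup.eq_one_iff _).mpr (sZ_mem F)
  have hb1 : π (sA F) ≠ 1 := mk_ne_one_of_offdiag (i := 0) (j := 1) (by decide) (by simp [sA])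
  refine of_a4 hp hp3 (a := π (qI h)) (b := π (sA F)) (w := π (qW h2 h)) ?_ ?_ ?_ ?_ ?_ ?_ hb1
  · rw [pow_two, ← map_mul, qI_sq, hz]
  · rw [pow_two, ← map_mul, sA_sq, hz]
  · rw [← map_mul, qIJ, map_mul, hz, one_mul, map_mul]
  · rw [pow_succ, pow_two, ← map_mul, ← map_mul, qW_cube, map_one]
  · rw [mul_inv_eq_iff_eq_mul, ← map_mul, qWI, map_mul, map_mul]
  · rw [mul_inv_eq_iff_eq_mul, ← map_mul, qWJ, map_mul]

theorem psl_two [Finite F] {p : ℕ} (hp : p.Prime) (hp3 : 3 < p) :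
    HasNN p (Matrix.ProjectiveSpecialLinearGroup (Fin 2) F) := by
  by_cases h2 : (2 : F) = 0
  · exact psl_two_even h2 hp hp3
  · exact psl_two_odd h2 hp hp3

/-! ### `PSL₃`, odd characteristic -/

section Three

variable (F)

def tA : SpecialLinearGroup (Fin 3) F :=
  ⟨!![-1, 0, 0; 0, -1, 0; 0, 0, 1], by rw [Matrix.det_fin_three]; simp⟩

def tB : SpecialLinearGroup (Fin 3) F :=
  ⟨!![-1, 0, 0; 0, 1, 0; 0, 0, -1], by rw [Matrix.det_fin_three]; simp⟩

def tW : SpecialLinearGroup (Fin 3) F :=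
  ⟨!![0, 0, 1; 1, 0, 0; 0, 1, 0], by rw [Matrix.det_fin_three]; simp⟩

theorem tA_sq : tA F * tA F = 1 := by
  refine Subtype.ext ?_
  change (tA F).1 * (tA F).1 = 1
  ext i j
  fin_cases i <;> fin_cases j <;> simp [tA, Matrix.mul_apply, Fin.sum_univ_three]

theorem tB_sq : tB F * tB F = 1 := by
  refine Subtype.ext ?_
  change (tB F).1 * (tB F).1 = 1
  ext i j
  fin_cases i <;> fin_cases j <;> simp [tB, Matrix.mul_apply, Fin.sum_univ_three]

theorem tAB : tA F * tB F = tB F * tA F := by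
  refine Subtype.ext ?_
  change (tA F).1 * (tB F).1 = (tB F).1 * (tA F).1
  ext i j
  fin_cases i <;> fin_cases j <;> simp [tA, tB, Matrix.mul_apply, Fin.sum_univ_three]

theorem tW_cube : tW F * tW F * tW F = 1 := by
  refine Subtype.ext ?_
  change (tW F).1 * (tW F).1 * (tW F).1 = 1
  ext i j
  fin_cases i <;> fin_cases j <;> simp [tW, Matrix.mul_apply, Fin.sum_univ_three]

theorem tWA : tW F * tA F = tA F * tB F * tW F := by
  refine Subtype.ext ?_
  change (tW F).1 * (tA F).1 = (tA F).1 * (tB F).1 * (tW F).1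
  ext i j
  fin_cases i <;> fin_cases j <;> simp [tA, tB, tW, Matrix.mul_apply, Fin.sum_univ_three]

theorem tWB : tW F * tB F = tA F * tW F := by
  refine Subtype.ext ?_
  change (tW F).1 * (tB F).1 = (tA F).1 * (tW F).1
  ext i j
  fin_cases i <;> fin_cases j <;> simp [tA, tB, tW, Matrix.mul_apply, Fin.sum_univ_three]

end Three

theorem psl_three (h2 : (2 : F) ≠ 0) {p : ℕ} (hp : p.Prime) (hp3 : 3 < p) :
    HasNN p (Matrix.ProjectiveSpecialLinearGroup (Fin 3) F) := by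
  let π := QuotientGroup.mk' (Subgroup.center (SpecialLinearGroup (Fin 3) F))
  have hb1 : π (tB F) ≠ 1 := mk_ne_one_of_diag (i := 0) (j := 1) (by
    simp only [tB]
    simp only [Fin.isValue, of_apply, cons_val', cons_val_zero, cons_val_one]
    intro h
    exact h2 (by linear_combination (-1 : F) * h))
  refine of_a4 hp hp3 (a := π (tA F)) (b := π (tB F)) (w := π (tW F)) ?_ ?_ ?_ ?_ ?_ ?_ hb1
  · rw [pow_two, ← map_mul, tA_sq, map_one]
  · rw [pow_two, ← map_mul, tB_sq, map_one]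
  · rw [← map_mul, tAB, map_mul]
  · rw [pow_succ, pow_two, ← map_mul, ← map_mul, tW_cube, map_one]
  · rw [mul_inv_eq_iff_eq_mul, ← map_mul, tWA, map_mul, map_mul]
  · rw [mul_inv_eq_iff_eq_mul, ← map_mul, tWB, map_mul]

end Cfsg.Agent.H484.NonNilPSL
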